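import Cfsg.Agent.Lib.Helper3.U34.Main

/-!
# Automorphisms of a Sylow 2-subgroup of `PSU(3, 4)`: no subgroup isomorphic to `S₃`
-/

set_option autoImplicit false

namespace Cfsg.Agent.Lib.Helper3.U34

/-- no three cosets `x`, `y`, `x y` of the centre with the same non-trivial square -/
def Sq3 (P : Type*) [Group P] : Prop :=
  ∀ x y : P, x * x ≠ 1 → y * y = x * x → (x * y) * (x * y) ≠ x * x

set_option maxRecDepth 100000 in
theorem sq3M : Sq3 M64 := by
  unfold Sq3
  decide +kernel

theorem Sq3.of_equiv {P Q : Type*} [Group P] [Group Q] (e : P ≃* Q) (h : Sq3 P) : Sq3 Q := by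
  intro x y hx hy hxy
  obtain ⟨a, rfl⟩ := e.surjective x
  obtain ⟨b, rfl⟩ := e.surjective y
  simp only [← map_mul] at hx hy hxy
  refine h a b ?_ (e.injective hy) (e.injective hxy)
  intro h1
  apply hx
  rw [h1, map_one]

theorem iso_sylow {F : Type*} [Field F] [Fintype F] (hF : Fintype.card F = 16)
    (S : Sylow 2 (Cfsg.PSU 3 F 4)) : Nonempty (M64 ≃* (S : Subgroup (Cfsg.PSU 3 F 4))) := by
  have hc := card_psu hF
  have : Finite (Cfsg.PSU 3 F 4) := Nat.finite_of_card_ne_zero (by rw [hc]; norm_num)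
  obtain ⟨E⟩ := psu_of_card (n := 3) (q := 4) (F := F16) (K := F) (by rw [hF]; exact F16.card_eq)
  let f : M64 →* Cfsg.PSU 3 F 4 := E.toMonoidHom.comp psi
  have hf : Function.Injective f := E.injective.comp psi_inj
  let e1 : M64 ≃* f.range := MonoidHom.ofInjective hf
  have hS : Nat.card S = 64 := by
    rw [Sylow.card_eq_multiplicity, hc, fact624]
    norm_num
  have hU : Nat.card f.range = Nat.card S := by
    rw [hS, ← Nat.card_congr e1.toEquiv]
    exact factsM.card
  obtain ⟨e2⟩ := sylow_iso_of_card S f.range hU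
  exact ⟨e1.trans e2⟩

variable {P : Type*} [Group P]

theorem Facts.sq4 (h : Facts P) (x : P) : (x * x) * (x * x) = 1 :=
  h.central_inv (x * x) (fun y => h.sq_central x y)

/-- an automorphism of order three which is trivial on the centre is trivial -/
theorem autA (h : Facts P) (h3 : Sq3 P) (α : P ≃* P) (h3α : ∀ x, α (α (α x)) = x)
    (hz : ∀ z : P, z * z = 1 → α z = z) : ∀ x, α x = x := by
  have key : ∀ x : P, (x⁻¹ * α x) * (x⁻¹ * α x) = 1 := by
    intro x
    set w := x⁻¹ * α x with hwdef
    have hw : w * α w * α (α w) = 1 := by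
      simp only [hwdef, map_mul, map_inv, h3α]
      group
    by_contra hne
    have hy : α w * α w = w * w := by
      rw [← map_mul]
      exact hz _ (h.sq4 w)
    have hc : α (α w) = (w * α w)⁻¹ := eq_inv_of_mul_eq_one_right hw
    have hcc : α (α w) * α (α w) = w * w := by
      rw [← map_mul, ← map_mul, hz _ (h.sq4 w), hz _ (h.sq4 w)]
    rw [hc, ← mul_inv_rev] at hcc
    have h5 : (w * α w) * (w * α w) = w * w := by
      have h6 : ((w * α w) * (w * α w)) = (w * w)⁻¹ := by
        rw [← hcc, inv_inv]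
      rw [h6]
      exact inv_eq_of_mul_eq_one_left (h.sq4 w)
    exact h3 w (α w) hne hy h5
  have h2 : ∀ x : P, α (α x) = x := by
    intro x
    have e1 : α x = x * (x⁻¹ * α x) := by group
    have e2 : α (x⁻¹ * α x) = x⁻¹ * α x := hz _ (key x)
    calc α (α x) = α (x * (x⁻¹ * α x)) := by rw [← e1]
      _ = α x * (x⁻¹ * α x) := by rw [map_mul, e2]
      _ = x * ((x⁻¹ * α x) * (x⁻¹ * α x)) := by group
      _ = x := by rw [key x, mul_one]
  intro x
  have := h3α x
  rw [h2 (α x)] at this
  exact this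

theorem three_of_card {α : Type*} [Finite α] (h : 2 < Nat.card α) :
    ∃ a b c : α, a ≠ b ∧ a ≠ c ∧ b ≠ c := by
  have := Fintype.ofFinite α
  rw [Nat.card_eq_fintype_card] at h
  exact Fintype.two_lt_card_iff.1 h

theorem card_of_three {α : Type*} [Finite α] (a b c : α) (h1 : a ≠ b) (h2 : a ≠ c)
    (h3 : b ≠ c) : 2 < Nat.card α := by
  have := Fintype.ofFinite α
  rw [Nat.card_eq_fintype_card]
  exact Fintype.two_lt_card_iff.2 ⟨a, b, c, h1, h2, h3⟩

/-- an involutory automorphism is trivial on the centre -/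
theorem autB (h : Facts P) (h3 : Sq3 P) (τ : P ≃* P) (h2τ : ∀ x, τ (τ x) = x) :
    ∀ z : P, z * z = 1 → τ z = z := by
  intro z2 hz2
  by_contra hne
  have : Finite P := Nat.finite_of_card_ne_zero (by rw [h.card]; norm_num)
  have star : ∀ u v : P, u * u = 1 → v * v = 1 → τ u = u → τ v = v → u ≠ 1 → v ≠ 1 →
      u = v := by
    intro u v hu hv hu' hv' hu1 hv1
    by_contra huv
    let C : Subgroup P := Subgroup.center P ⊓ MonoidHom.eqLocus (τ : P →* P) (MonoidHom.id P)
    have hCle : C ≤ Subgroup.center P := inf_le_left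
    have hd : Nat.card C ∣ 4 := by
      rw [← h.card_center]
      exact Subgroup.card_dvd_of_le hCle
    have hmem : ∀ w : P, w * w = 1 → τ w = w → w ∈ C := fun w h1 h2 =>
      ⟨(h.mem_center_iff w).2 h1, h2⟩
    have h4 : 2 < Nat.card C :=
      card_of_three (⟨1, C.one_mem⟩ : C) ⟨u, hmem u hu hu'⟩ ⟨v, hmem v hv hv'⟩
        (fun e => hu1 (congrArg Subtype.val e).symm) (fun e => hv1 (congrArg Subtype.val e).symm)
        (fun e => huv (congrArg Subtype.val e))
    have h5 : Nat.card C = 4 := by
      have h6 := Nat.le_of_dvd (by norm_num) hd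
      generalize Nat.card C = n at hd h4 h6
      interval_cases n
      · norm_num at hd
      · rfl
    have h6 : C = Subgroup.center P :=
      Subgroup.eq_of_le_of_card_ge hCle (by rw [h5, h.card_center])
    have h7 : z2 ∈ C := by rw [h6]; exact (h.mem_center_iff z2).2 hz2
    exact hne h7.2
  have hle : Subgroup.center P ≤ (Subgroup.center P).comap (τ : P →* P) := by
    intro x hx
    rw [Subgroup.mem_comap]
    apply (h.mem_center_iff _).2
    show τ x * τ x = 1
    rw [← map_mul, (h.mem_center_iff x).1 hx, map_one]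
  let T : (P ⧸ Subgroup.center P) →* (P ⧸ Subgroup.center P) :=
    QuotientGroup.map _ _ (τ : P →* P) hle
  have hT : ∀ x : P, T (QuotientGroup.mk x) = QuotientGroup.mk (τ x) := fun x => rfl
  have hTT : ∀ q, T (T q) = q := by
    intro q
    induction q using QuotientGroup.induction_on with
    | H x => rw [hT, hT, h2τ]
  have hinv : ∀ a : P ⧸ Subgroup.center P, a⁻¹ = a := fun a =>
    inv_eq_of_mul_eq_one_left (by rw [← pow_two]; exact h.quot_sq a)
  have hcomm : ∀ a b : P ⧸ Subgroup.center P, a * b = b * a := fun a b => by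
    have := hinv (a * b)
    rw [mul_inv_rev, hinv, hinv] at this
    exact this.symm
  have fixsq : ∀ x : P, T (QuotientGroup.mk x) = QuotientGroup.mk x → τ (x * x) = x * x := by
    intro x hx
    rw [hT, QuotientGroup.eq] at hx
    have hw := (h.mem_center_iff _).1 hx
    have hc := Subgroup.mem_center_iff.1 hx
    generalize hwdef : (τ x)⁻¹ * x = w at hw hc
    have e1 : x = τ x * w := by rw [← hwdef]; group
    rw [map_mul]
    calc τ x * τ x = τ x * τ x * (w * w) := by rw [hw, mul_one]
      _ = τ x * (τ x * w) * w := by group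
      _ = τ x * (w * τ x) * w := by rw [hc (τ x)]
      _ = (τ x * w) * (τ x * w) := by group
      _ = x * x := by rw [← e1]
  have ne1 : ∀ x : P, (QuotientGroup.mk x : P ⧸ Subgroup.center P) ≠ 1 → x * x ≠ 1 := by
    intro x hx hxx
    apply hx
    exact (QuotientGroup.eq_one_iff x).2 ((h.mem_center_iff x).2 hxx)
  have key : ∀ a b : P ⧸ Subgroup.center P, T a = a → T b = b → a ≠ 1 → b ≠ 1 → a = b := by
    intro a b ha hb ha1 hb1
    induction a using QuotientGroup.induction_on with
    | H x =>
    induction b using QuotientGroup.induction_on with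
    | H y =>
    by_contra hab
    have hx := fixsq x ha
    have hy := fixsq y hb
    have hxy1 : (QuotientGroup.mk (x * y) : P ⧸ Subgroup.center P) ≠ 1 := by
      intro e
      rw [QuotientGroup.mk_mul] at e
      apply hab
      rw [eq_inv_of_mul_eq_one_left e, hinv]
    have hxyT : T (QuotientGroup.mk (x * y)) = QuotientGroup.mk (x * y) := by
      rw [QuotientGroup.mk_mul, map_mul, ha, hb]
    have hxy := fixsq (x * y) hxyT
    have e1 : y * y = x * x :=
      star _ _ (h.sq4 y) (h.sq4 x) hy hx (ne1 y hb1) (ne1 x ha1)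
    have e2 : (x * y) * (x * y) = x * x :=
      star _ _ (h.sq4 _) (h.sq4 x) hxy hx (ne1 _ hxy1) (ne1 x ha1)
    exact h3 x y (ne1 x ha1) e1 e2
  have small : ∀ K : Subgroup (P ⧸ Subgroup.center P), (∀ q ∈ K, T q = q) →
      Nat.card K ≤ 2 := by
    intro K hK
    by_contra hlt
    obtain ⟨a, b, c, hab, hac, hbc⟩ := three_of_card (not_le.1 hlt)
    by_cases ha : a = 1
    · have hb1 : b ≠ 1 := fun e => hab (ha.trans e.symm)
      have hc1 : c ≠ 1 := fun e => hac (ha.trans e.symm)
      exact hbc (Subtype.ext (key b c (hK _ b.2) (hK _ c.2) (fun e => hb1 (Subtype.ext e))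
        (fun e => hc1 (Subtype.ext e))))
    · by_cases hb : b = 1
      · have hc1 : c ≠ 1 := fun e => hbc (hb.trans e.symm)
        exact hac (Subtype.ext (key a c (hK _ a.2) (hK _ c.2) (fun e => ha (Subtype.ext e))
          (fun e => hc1 (Subtype.ext e))))
      · exact hab (Subtype.ext (key a b (hK _ a.2) (hK _ b.2) (fun e => ha (Subtype.ext e))
          (fun e => hb (Subtype.ext e))))
  let δ : (P ⧸ Subgroup.center P) →* (P ⧸ Subgroup.center P) :=
    MonoidHom.mk' (fun q => q * T q) (by
      intro a b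
      rw [map_mul]
      calc a * b * (T a * T b) = a * (b * T a) * T b := by group
        _ = a * (T a * b) * T b := by rw [hcomm b (T a)]
        _ = a * T a * (b * T b) := by group)
  have hker : Nat.card δ.ker ≤ 2 := by
    apply small
    intro q hq
    have h1 : q * T q = 1 := hq
    exact (eq_inv_of_mul_eq_one_right h1).trans (hinv q)
  have hran : Nat.card δ.range ≤ 2 := by
    apply small
    rintro _ ⟨q, rfl⟩
    show T (q * T q) = q * T q
    rw [map_mul, hTT, hcomm]
  have hcard := Subgroup.card_mul_index δ.ker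
  rw [Subgroup.index_ker, h.card_quot] at hcard
  have := Nat.mul_le_mul hker hran
  omega

theorem no_S3 (h : Facts P) (h3 : Sq3 P) (H : Subgroup (MulAut P)) :
    ¬ Nonempty (H ≃* Equiv.Perm (Fin 3)) := by
  rintro ⟨e⟩
  obtain ⟨s1, hs1⟩ : ∃ s, s = e.symm (Equiv.swap 0 1) := ⟨_, rfl⟩
  obtain ⟨s2, hs2⟩ : ∃ s, s = e.symm (Equiv.swap 1 2) := ⟨_, rfl⟩
  have h1 : s1 * s1 = 1 := by
    rw [hs1, ← map_mul, Equiv.swap_mul_self, map_one]
  have h2 : s2 * s2 = 1 := by
    rw [hs2, ← map_mul, Equiv.swap_mul_self, map_one]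
  have h1' : ∀ x, (s1 : MulAut P) ((s1 : MulAut P) x) = x := by
    intro x
    have := congrArg (fun t : H => (t : MulAut P) x) h1
    simpa using this
  have h2' : ∀ x, (s2 : MulAut P) ((s2 : MulAut P) x) = x := by
    intro x
    have := congrArg (fun t : H => (t : MulAut P) x) h2
    simpa using this
  have f1 := autB h h3 (s1 : MulAut P) h1'
  have f2 := autB h h3 (s2 : MulAut P) h2'
  have h3' : (s1 * s2) * ((s1 * s2) * (s1 * s2)) = 1 := by
    rw [hs1, hs2, ← map_mul, ← map_mul, ← map_mul]
    have h4 : (Equiv.swap (0 : Fin 3) 1 * Equiv.swap 1 2) *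
        ((Equiv.swap 0 1 * Equiv.swap 1 2) * (Equiv.swap 0 1 * Equiv.swap 1 2)) = 1 := by
      decide
    rw [h4, map_one]
  have f3 := autA h h3 ((s1 * s2 : H) : MulAut P)
    (by
      intro x
      exact congrArg (fun t : H => (t : MulAut P) x) h3')
    (by
      intro z hz
      show (s1 : MulAut P) ((s2 : MulAut P) z) = z
      rw [f2 z hz, f1 z hz])
  have f4 : s1 * s2 = 1 := by
    apply Subtype.ext
    apply MulEquiv.ext
    intro x
    exact f3 x
  have f5 : Equiv.swap (0 : Fin 3) 1 * Equiv.swap 1 2 = 1 := by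
    have := congrArg e f4
    simpa [hs1, hs2] using this
  exact absurd f5 (by decide)

end Cfsg.Agent.Lib.Helper3.U34
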