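import Mathlib

/-!
# Groups of order 64 of the type of a Sylow 2-subgroup of `PSU(3, 4)`: consequences of
elementwise facts
-/

set_option autoImplicit false

namespace Cfsg.Agent.Lib.Helper3.U34

/-- the elementwise facts -/
structure Facts (P : Type*) [Group P] : Prop where
  card : Nat.card P = 64
  sq_central : ∀ x y : P, (x * x) * y = y * (x * x)
  inv_central : ∀ x y : P, x * x = 1 → x * y = y * x
  central_inv : ∀ x : P, (∀ y, x * y = y * x) → x * x = 1
  card_inv : Nat.card {x : P // x * x = 1} = 4
  comm_of_inv : ∀ z : P, z * z = 1 → ∃ x y : P, z = x * y * x⁻¹ * y⁻¹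
  comm_inv : ∀ x y : P, (x * y * x⁻¹ * y⁻¹) * (x * y * x⁻¹ * y⁻¹) = 1

theorem Facts.of_equiv {P Q : Type*} [Group P] [Group Q] (e : P ≃* Q) (h : Facts P) : Facts Q where
  card := by rw [← Nat.card_congr e.toEquiv]; exact h.card
  sq_central x y := by
    obtain ⟨a, rfl⟩ := e.surjective x
    obtain ⟨b, rfl⟩ := e.surjective y
    simp only [← map_mul]
    rw [h.sq_central]
  inv_central x y hx := by
    obtain ⟨a, rfl⟩ := e.surjective x
    obtain ⟨b, rfl⟩ := e.surjective y
    simp only [← map_mul] at hx ⊢
    rw [h.inv_central a b (e.injective (by rw [hx, map_one]))]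
  central_inv x hx := by
    obtain ⟨a, rfl⟩ := e.surjective x
    rw [← map_mul, h.central_inv a, map_one]
    intro b
    apply e.injective
    rw [map_mul, map_mul]
    exact hx (e b)
  card_inv := by
    rw [← h.card_inv]
    apply Nat.card_congr
    refine (e.toEquiv.subtypeEquiv ?_).symm
    intro a
    constructor
    · intro ha
      show e a * e a = 1
      rw [← map_mul, ha, map_one]
    · intro ha
      apply e.injective
      rw [map_mul, map_one]
      exact ha
  comm_of_inv z hz := by
    obtain ⟨c, rfl⟩ := e.surjective z
    have hc : c * c = 1 := by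
      apply e.injective
      rw [map_mul, map_one]
      exact hz
    obtain ⟨a, b, hab⟩ := h.comm_of_inv c hc
    refine ⟨e a, e b, ?_⟩
    rw [hab]
    simp
  comm_inv x y := by
    obtain ⟨a, rfl⟩ := e.surjective x
    obtain ⟨b, rfl⟩ := e.surjective y
    have := congrArg e (h.comm_inv a b)
    simpa using this

variable {P : Type*} [Group P]

theorem Facts.mem_center_iff (h : Facts P) (x : P) : x ∈ Subgroup.center P ↔ x * x = 1 := by
  rw [Subgroup.mem_center_iff]
  constructor
  · intro hx
    exact h.central_inv x (fun y => (hx y).symm)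
  · intro hx y
    exact (h.inv_central x y hx).symm

theorem Facts.card_center (h : Facts P) : Nat.card (Subgroup.center P) = 4 := by
  rw [← h.card_inv]
  exact Nat.card_congr (Equiv.subtypeEquivRight (fun x => h.mem_center_iff x))

theorem Facts.kleinFour (h : Facts P) : IsKleinFour (Subgroup.center P) where
  card_four := h.card_center
  exponent_two := by
    have h1 : Monoid.exponent (Subgroup.center P) ∣ 2 := by
      apply Monoid.exponent_dvd_of_forall_pow_eq_one
      intro g
      apply Subtype.ext
      have := (h.mem_center_iff g.1).1 g.2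
      simpa [pow_two] using this
    rcases (Nat.dvd_prime Nat.prime_two).1 h1 with h2 | h2
    · exfalso
      have h3 : Subsingleton (Subgroup.center P) := Monoid.exp_eq_one_iff.1 h2
      have h4 : Nat.card (Subgroup.center P) ≤ 1 := by
        have : Finite (Subgroup.center P) := Nat.finite_of_card_ne_zero (by rw [h.card_center]; norm_num)
        exact Finite.card_le_one_iff_subsingleton.2 h3
      rw [h.card_center] at h4
      omega
    · exact h2

theorem Facts.center_eq_closure (h : Facts P) :
    Subgroup.center P = Subgroup.closure {x : P | orderOf x = 2} := by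
  apply le_antisymm
  · intro z hz
    by_cases h1 : z = 1
    · rw [h1]; exact Subgroup.one_mem _
    · apply Subgroup.subset_closure
      have h2 := (h.mem_center_iff z).1 hz
      exact orderOf_eq_prime (by rw [pow_two]; exact h2) h1
  · rw [Subgroup.closure_le]
    intro x hx
    have hx' : orderOf x = 2 := hx
    apply (h.mem_center_iff x).2
    have := pow_orderOf_eq_one x
    rw [hx', pow_two] at this
    exact this

theorem Facts.center_eq_commutator (h : Facts P) : Subgroup.center P = commutator P := by
  rw [commutator_eq_closure]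
  apply le_antisymm
  · intro z hz
    obtain ⟨x, y, hxy⟩ := h.comm_of_inv z ((h.mem_center_iff z).1 hz)
    apply Subgroup.subset_closure
    exact ⟨x, y, by rw [commutatorElement_def, hxy]⟩
  · rw [Subgroup.closure_le]
    rintro _ ⟨x, y, rfl⟩
    apply (h.mem_center_iff _).2
    rw [commutatorElement_def]
    exact h.comm_inv x y

theorem Facts.card_quot (h : Facts P) : Nat.card (P ⧸ Subgroup.center P) = 16 := by
  have h1 := Subgroup.card_eq_card_quotient_mul_card_subgroup (Subgroup.center P)
  rw [h.card, h.card_center] at h1
  omega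

theorem Facts.quot_sq (h : Facts P) (x : P ⧸ Subgroup.center P) : x ^ 2 = 1 := by
  induction x using QuotientGroup.induction_on with
  | H g =>
    rw [← QuotientGroup.mk_pow, QuotientGroup.eq_one_iff, Subgroup.mem_center_iff]
    intro y
    rw [pow_two]
    exact (h.sq_central g y).symm

/-- a Sylow subgroup is isomorphic to any subgroup of the same order -/
theorem sylow_iso_of_card {G : Type*} [Group G] [Finite G] {p : ℕ} [Fact p.Prime] (S : Sylow p G)
    (U : Subgroup G) (hU : Nat.card U = Nat.card S) : Nonempty (U ≃* S) := by
  have hp : IsPGroup p U := by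
    obtain ⟨k, hk⟩ := (IsPGroup.iff_card).1 S.2
    exact IsPGroup.of_card (n := k) (by rw [hU]; exact hk)
  obtain ⟨Q, hQ⟩ := hp.exists_le_sylow
  have hcQ : Nat.card Q = Nat.card S := by
    rw [Sylow.card_eq_multiplicity, Sylow.card_eq_multiplicity]
  have hUQ : U = (Q : Subgroup G) := by
    apply Subgroup.eq_of_le_of_card_ge hQ
    rw [hU]
    exact hcQ.le
  obtain ⟨g, hg⟩ := MulAction.exists_smul_eq G Q S
  have e1 : (Q : Subgroup G) ≃* ((g • Q : Sylow p G) : Subgroup G) := Sylow.equivSMul Q g
  rw [hg] at e1
  exact ⟨(MulEquiv.subgroupCongr hUQ).trans e1⟩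

end Cfsg.Agent.Lib.Helper3.U34
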