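import Cfsg.Agent.Lib.Helper3.U34.Tab
import Cfsg.Agent.Lib.Helper3.U34.Facts
import Cfsg.Agent.Lib.Helper3.ExcIso2
import Cfsg.Agent.S0280

/-!
# The Sylow 2-subgroups of `PSU(3, 4)`
-/

set_option autoImplicit false

namespace Cfsg.Agent.Lib.Helper3.U34

open Cfsg.Agent.Lib.Helper3 Matrix

/-- the special unitary group -/
abbrev SUd : Type := Cfsg.SU 3 F16 4

/-- the elements -/
def uu (x : M64) : SUd :=
  ⟨⟨mat x, det_mat x⟩, fun u v => herm_preserved 3 4 frob (fun _ => rfl) _ (uni_mat x) u v⟩

/-- a further element -/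
def tt : SUd :=
  ⟨⟨tm, det_tm⟩, fun u v => herm_preserved 3 4 frob (fun _ => rfl) _ uni_tm u v⟩

/-- the embedding in the special unitary group -/
def phi : M64 →* SUd :=
  MonoidHom.mk' uu (by
    intro x y
    apply Subtype.ext
    apply Subtype.ext
    exact mat_mul x y)

/-- the embedding in the projective group -/
def psi : M64 →* Cfsg.PSU 3 F16 4 := (QuotientGroup.mk' _).comp phi

theorem psi_inj : Function.Injective psi := by
  rw [injective_iff_map_eq_one]
  intro x hx
  have h1 : phi x ∈ Subgroup.center SUd := (QuotientGroup.eq_one_iff _).1 hx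
  have h2 := (Subgroup.mem_center_iff.1 h1) tt
  apply not_comm_tm x
  have h3 := congrArg (fun g : SUd => (g.1.1 : Matrix (Fin 3) (Fin 3) F16)) h2
  exact h3.symm

theorem factsM : Facts M64 where
  card := by rw [Nat.card_eq_fintype_card]; exact f_card
  sq_central := f_sq_central
  inv_central := f_inv_central
  central_inv := f_central_inv
  card_inv := by rw [Nat.card_eq_fintype_card]; exact f_card_inv
  comm_of_inv := f_comm_of_inv
  comm_inv := f_comm_inv

theorem card_psu {F : Type*} [Field F] [Fintype F] (hF : Fintype.card F = 16) :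
    Nat.card (Cfsg.PSU 3 F 4) = 62400 := by
  have h := Cfsg.Agent.S0280.result (F := F) (q := 4) (by rw [hF]; norm_num) 3 (by norm_num)
  have h2 : (∏ i ∈ Finset.range 3, (if Even i then 4 ^ (i + 1) + 1 else 4 ^ (i + 1) - 1)) = 4875 := by
    decide
  rw [h2] at h
  norm_num at h
  omega

theorem fact624 : (62400 : ℕ).factorization 2 = 6 := by
  have h : (62400 : ℕ) = 2 ^ 6 * 975 := by norm_num
  rw [h, Nat.factorization_mul (by norm_num) (by norm_num), Nat.Prime.factorization_pow Nat.prime_two]
  simp [Nat.factorization_eq_zero_of_not_dvd (show ¬ 2 ∣ 975 by norm_num)]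

theorem facts_sylow {F : Type*} [Field F] [Fintype F] (hF : Fintype.card F = 16)
    (S : Sylow 2 (Cfsg.PSU 3 F 4)) : Facts (S : Subgroup (Cfsg.PSU 3 F 4)) := by
  have hc := card_psu hF
  have : Finite (Cfsg.PSU 3 F 4) := Nat.finite_of_card_ne_zero (by rw [hc]; norm_num)
  obtain ⟨E⟩ := psu_of_card (n := 3) (q := 4) (F := F16) (K := F) (by rw [hF]; exact F16.card_eq)
  let f : M64 →* Cfsg.PSU 3 F 4 := E.toMonoidHom.comp psi
  have hf : Function.Injective f := E.injective.comp psi_inj
  let e1 : M64 ≃* f.range := MonoidHom.ofInjective hf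
  have hS : Nat.card S = 64 := by
    rw [Sylow.card_eq_multiplicity, hc, fact624]
    norm_num
  have hU : Nat.card f.range = Nat.card S := by
    rw [hS, ← Nat.card_congr e1.toEquiv]
    exact factsM.card
  obtain ⟨e2⟩ := sylow_iso_of_card S f.range hU
  exact factsM.of_equiv (e1.trans e2)

end Cfsg.Agent.Lib.Helper3.U34
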